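import Cfsg.Agent.H1.Bsw7
import Cfsg.Agent.H9.Loc1
import Cfsg.Agent.H9.G168b

/-! Involutions with a self-centralizing four-group. -/

set_option autoImplicit false

namespace H1

open Subgroup H9 Cfsg

variable {G : Type*} [Group G] [Finite G]

theorem cen_eq_of_conj {x y : G} (hV : IsKleinFour (Cen x)) (hy : y ∈ Cen x) (h : IsConj x y) :
    Cen y = Cen x :=
  (eq_of_le_of_card_ge (le_Cen_of_comm (klein_comm hV) hy) (card_Cen_of_isConj h).le).symm

/-- If the four-group `C(x)` is not a Sylow subgroup there is a small normal subgroup. -/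
theorem exists_normal_of_not_sylow {x : G} (hx : orderOf x = 2) (hV : IsKleinFour (Cen x))
    {g : G} (hg : g ∈ normalizer ((Cen x : Subgroup G) : Set G)) (hg1 : g ∉ Cen x)
    (hg2 : g * g ∈ Cen x) : ∃ E : Subgroup G, E.Normal ∧ IsElementaryAbelian 2 E ∧
      (Nat.card E = 2 ∨ Nat.card E = 4) := by
  have hc := klein_comm hV
  have hx1 := ne_one_of_orderOf hx (by norm_num)
  set x' := g * x * g⁻¹ with hx'
  have h1 : x' ∈ Cen x := conj_mem_of_normalizer hg (self_mem_Cen x)
  have h2 : x ≠ x' := fun e => hg1 (mem_Cen'.2 e.symm)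
  have h3 : x' ≠ 1 := fun e => hx1 (by simpa [hx'] using e)
  have hxx' : IsConj x x' := isConj_iff.2 ⟨g, rfl⟩
  set z := x * x' with hz
  have hzV : z ∈ Cen x := mul_mem (self_mem_Cen x) h1
  have hz1 : z ≠ 1 := fun e => h2 (by
    rw [← inv_eq_of_orderOf_two hx]; exact inv_eq_of_mul_eq_one_right e)
  have oz := klein_order hV hzV hz1
  have h4 : g ∈ Cen z := by
    rw [mem_Cen', hz]
    calc g * (x * x') * g⁻¹ = x' * ((g * g) * x * (g * g)⁻¹) := by rw [hx']; group
      _ = x * x' := by rw [mem_Cen'.1 hg2, hc _ h1 _ (self_mem_Cen x)]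
  have h5 : ¬ IsConj x z := fun e => hg1 (cen_eq_of_conj hV hzV e ▸ h4)
  have h6 : ∀ v, IsConj z v → z * v = v * z := by
    intro v hv
    have ov := (orderOf_of_isConj hv).trans oz
    obtain ⟨w, -, ow, h7, h8⟩ := exists_invol_comm (mul_self_of_orderOf_two hx)
      (mul_self_of_orderOf_two ov) fun e => h5 (e.trans hv.symm)
    have h9 : w ∈ Cen x := mem_Cen.2 h7.symm
    rcases klein_cases hV (self_mem_Cen x) h1 hx1 h3 h2 h9 with e | e | e | e
    · rw [e] at ow; simp at ow
    · exact hc _ hzV _ (mem_Cen.2 (e ▸ h8))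
    · exact hc _ hzV _ (cen_eq_of_conj hV h1 hxx' ▸ mem_Cen.2 (e ▸ h8))
    · exact hz ▸ e ▸ h8
  let E := normalClosure ({z} : Set G)
  have h7 : ∀ a ∈ Group.conjugatesOfSet ({z} : Set G), ∀ b ∈ Group.conjugatesOfSet ({z} : Set G),
      a * b = b * a := by
    intro a ha b hb
    obtain ⟨_, rfl, ha⟩ := Group.mem_conjugatesOfSet_iff.1 ha
    obtain ⟨_, rfl, hb⟩ := Group.mem_conjugatesOfSet_iff.1 hb
    obtain ⟨c, rfl⟩ := isConj_iff.1 ha
    have := h6 (c⁻¹ * b * c⁻¹⁻¹) (hb.trans (isConj_iff.2 ⟨c⁻¹, rfl⟩))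
    calc c * z * c⁻¹ * b = c * (z * (c⁻¹ * b * c⁻¹⁻¹)) * c⁻¹ := by group
      _ = _ := by rw [this]; group
  have hE : IsMulCommutative E := Subgroup.isMulCommutative_closure h7
  have hEc : ∀ a ∈ E, ∀ b ∈ E, a * b = b * a := fun a ha b hb =>
    congrArg Subtype.val (hE.is_comm.comm (⟨a, ha⟩ : E) ⟨b, hb⟩)
  have hE2 : ∀ a ∈ E, a ^ 2 = 1 := by
    intro a ha
    induction ha using closure_induction with
    | mem a ha =>
      obtain ⟨_, rfl, ha⟩ := Group.mem_conjugatesOfSet_iff.1 ha
      exact pow_eq_one_of_orderOf ((orderOf_of_isConj ha).trans oz)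
    | one => simp
    | mul a b ha hb h1 h2 => rw [Commute.mul_pow (hEc a ha b hb), h1, h2, mul_one]
    | inv a _ h1 => rw [inv_pow, h1, inv_one]
  have hzE : z ∈ E := subset_normalClosure rfl
  have hN : E.Normal := normalClosure_normal
  refine ⟨E, hN, ⟨hE, hE2⟩, ?_⟩
  have h8 : Nat.card E ≤ 4 := by
    by_cases hxE : x ∈ E
    · rw [← hV.card_four]
      exact card_le_of_le (le_Cen_of_comm hEc hxE)
    · have h9 : Nat.card ↥(E ⊓ Cen x) ≤ 2 := by
        have h10 := card_dvd_of_le (inf_le_right : E ⊓ Cen x ≤ Cen x)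
        have h11 : Nat.card ↥(E ⊓ Cen x) ≠ 4 := fun e => hxE ((eq_of_le_of_card_ge
          (inf_le_right : E ⊓ Cen x ≤ Cen x) (by rw [e, hV.card_four])).symm ▸ self_mem_Cen x).1
        rw [hV.card_four] at h10
        have := Nat.le_of_dvd (by norm_num) h10
        interval_cases Nat.card ↥(E ⊓ Cen x) <;> omega
      have hxx := mul_self_of_orderOf_two hx
      have hxi := inv_eq_of_orderOf_two hx
      let f : E →* ↥(E ⊓ Cen x) :=
        { toFun := fun e => ⟨e * (x * e * x⁻¹), mem_inf.2 ⟨mul_mem e.2 (hN.conj_mem _ e.2 x), by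
            rw [mem_Cen_comm, mem_Cen']
            nth_rewrite 2 [hEc _ e.2 _ (hN.conj_mem _ e.2 x)]
            rw [hxi]
            calc x * (e * (x * e * x)) * x = x * e * x * e * (x * x) := by group
              _ = _ := by rw [hxx, mul_one]⟩⟩
          map_one' := by ext; simp
          map_mul' := fun a b => by
            ext
            change (a * b : G) * (x * (a * b) * x⁻¹) = a * (x * a * x⁻¹) * (b * (x * b * x⁻¹))
            rw [mul_assoc (a : G) (x * a * x⁻¹), ← mul_assoc (x * a * x⁻¹),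
              hEc _ (hN.conj_mem _ a.2 x) _ b.2]
            group }
      have h10 : Nat.card f.ker ≤ Nat.card ↥(E ⊓ Cen x) := by
        refine Nat.card_le_card_of_injective (fun e => ⟨e.1.1, mem_inf.2 ⟨e.1.2, ?_⟩⟩)
          fun a b e => Subtype.ext (Subtype.ext (Subtype.mk.inj e))
        have h11 : (e.1.1 : G) * (x * e.1.1 * x⁻¹) = 1 := congrArg Subtype.val (MonoidHom.mem_ker.1 e.2)
        rw [mem_Cen_comm, mem_Cen', ← inv_eq_of_mul_eq_one_right h11]
        exact inv_eq_of_mul_eq_one_right (by rw [← sq, hE2 _ e.1.2])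
      have h11 := f.ker.index_mul_card
      rw [index_ker] at h11
      have h12 := card_le_card_group f.range
      nlinarith
  have h9 := oz ▸ orderOf_dvd_card_of_mem hzE
  have h10 : 0 < Nat.card E := Nat.card_pos
  omega

theorem A5_of_four {x : G} (hx : orderOf x = 2) (hV : IsKleinFour (Cen x))
    (hnc : ¬ HasNormalPComplement 2 G)
    (hne : ∀ E : Subgroup G, E.Normal → IsElementaryAbelian 2 E →
      Nat.card E ≠ 2 ∧ Nat.card E ≠ 4) : Nonempty (G ≃* alternatingGroup (Fin 5)) := by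
  have : Fact (Nat.Prime 2) := ⟨Nat.prime_two⟩
  have hc := klein_comm hV
  have hx1 := ne_one_of_orderOf hx (by norm_num)
  have h1 : ∀ g ∈ normalizer ((Cen x : Subgroup G) : Set G), g * g ∈ Cen x → g ∈ Cen x := by
    intro g hg h2
    by_contra h3
    obtain ⟨E, h4, h5, h6⟩ := exists_normal_of_not_sylow hx hV hg h3 h2
    have := hne E h4 h5
    omega
  have hV2 : IsPGroup 2 (Cen x) := IsPGroup.of_card (n := 2) hV.card_four
  obtain ⟨S, hS⟩ := hV2.exists_le_sylow
  have h2 : (S : Subgroup G) = Cen x := by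
    by_contra h3
    obtain ⟨g, hg, h4⟩ := SetLike.exists_of_lt
      (H8.lt_normalizer_inf S.2 (lt_of_le_of_ne hS (Ne.symm h3)))
    obtain ⟨k, hk⟩ := S.2 ⟨g, hg.2⟩
    have h5 : g ^ 2 ^ k = 1 := congrArg Subtype.val hk
    have h6 : ∀ j : ℕ, g ^ 2 ^ j ∈ Cen x → g ∈ Cen x := by
      intro j
      induction j with
      | zero => simp
      | succ j ih =>
        intro h7
        exact ih (h1 _ (pow_mem hg.1 _) (by rwa [← pow_add, ← two_mul, ← pow_succ']))
    exact h4 (h6 k (h5 ▸ one_mem _))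
  obtain ⟨n, hn, h3⟩ : ∃ n ∈ normalizer ((Cen x : Subgroup G) : Set G), n ∉ Cen x := by
    by_contra h3
    push Not at h3
    refine hnc ⟨S, _, inferInstance, MonoidHom.ker_transferSylow_isComplement' S fun g hg => ?_⟩
    rw [mem_centralizer_iff]
    intro a ha
    rw [← Sylow.coe_coe, h2] at hg ha
    exact hc a ha g (h3 g hg)
  have h4 : ∀ y ∈ Cen x, y ≠ 1 → IsConj x y := by
    have a1 := conj_mem_of_normalizer hn (self_mem_Cen x)
    have a2 := conj_mem_of_normalizer hn a1
    have b1 : n * x * n⁻¹ ≠ 1 := fun e => hx1 (by simpa using e)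
    have b2 : n * (n * x * n⁻¹) * n⁻¹ ≠ 1 := fun e => hx1 (by simpa using e)
    have c1 : x ≠ n * x * n⁻¹ := fun e => h3 (mem_Cen'.2 e.symm)
    have c2 : n * (n * x * n⁻¹) * n⁻¹ ≠ x := fun e => h3 (h1 n hn (mem_Cen'.2 (by
      exact Eq.trans (by group) e)))
    have c3 : n * (n * x * n⁻¹) * n⁻¹ ≠ n * x * n⁻¹ := fun e => c1 (by simpa using e.symm)
    intro y hy hy1
    rcases klein_cases hV (self_mem_Cen x) a1 hx1 b1 c1 hy with e | e | e | e
    · exact absurd e hy1
    · rw [e]
    · exact e ▸ isConj_iff.2 ⟨n, rfl⟩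
    · rw [e, ← klein_eq_mul hV (self_mem_Cen x) a1 a2 hx1 b1 c1 b2 c2 c3]
      exact isConj_iff.2 ⟨n * n, by group⟩
  have h5 : ∀ u : G, orderOf u = 2 → IsConj x u := by
    intro u hu
    obtain ⟨g, hg⟩ := exists_conj_mem_sylow S (k := 1) (x := u) (by
      rw [pow_one, pow_eq_one_of_orderOf hu])
    rw [h2] at hg
    exact (h4 _ hg fun e => ne_one_of_orderOf hu (by norm_num) (by simpa using e)).trans
      (isConj_iff.2 ⟨g, rfl⟩).symm
  have hcc : ∀ y ∈ Cen x, y ≠ 1 → Cen y = Cen x := fun y hy h6 => cen_eq_of_conj hV hy (h4 y hy h6)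
  obtain ⟨s, hs, hsx⟩ : ∃ s ∈ Cen x, s ∉ zpowers x := by
    by_contra h6
    push Not at h6
    have := card_le_of_le h6
    rw [hV.card_four, Nat.card_zpowers, hx] at this
    omega
  have os := klein_order hV hs fun e => hsx (e ▸ one_mem _)
  have hk : Nat.card (Cen x) = 2 * Nat.card (zpowers x) := by rw [hV.card_four, Nat.card_zpowers, hx]
  have hb : BSW x (zpowers x) s := by
    refine ⟨hx, fun a ha b hb => comm_of_mem_zpowers ha hb, zpowers_le_Cen x, mem_zpowers x, os, hs,
      hsx, le_antisymm (sup_le (zpowers_le_Cen x) (zpowers_le.2 hs)) (le_of_index_two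
        (zpowers_le_Cen x) hk hs hsx le_sup_left (mem_sup_right (mem_zpowers s))),
      inf_eq_left.2 (zpowers_le.2 (mem_Cen_comm.1 hs)), fun y hy => ?_, fun g hg => ?_,
      fun a b ha hb => (h5 a ha).symm.trans (h5 b hb)⟩
    · rcases (mem_zpowers_two hx).1 hy with rfl | rfl
      · simp
      · rw [mem_Cen'.1 hs, inv_eq_of_orderOf_two hx]
    · rw [eq_bot_iff]
      intro y hy
      rcases (mem_zpowers_two hx).1 hy.1 with e | e
      · exact e
      · have h6 := mem_map_conj.1 (e ▸ hy.2)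
        rcases (mem_zpowers_two hx).1 h6 with e' | e'
        · exact absurd (by rw [← orderOf_eq_one_iff, ← orderOf_conj' x g, e', orderOf_one]) hx1
        · exact absurd (inv_mem_iff.1 (mem_Cen'.2 (by rwa [inv_inv]))) hg
  have h6 := cc_card hcc (by
    rw [hV.card_four, ← h2]
    exact Nat.Coprime.pow_left 2 ((Nat.Prime.coprime_iff_not_dvd Nat.prime_two).2 S.not_dvd_index))
  have h7 : Nat.card {g : G // PD (Nat.card (Cen x)) g} = Nat.card {u : G // orderOf u = 2} := by
    refine card_subtype_congr fun g => ⟨fun e => ?_, fun e => ?_⟩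
    · obtain ⟨c, h8⟩ := cc_exists_conj hcc (by
        rw [hV.card_four, ← h2]
        exact Nat.Coprime.pow_left 2
          ((Nat.Prime.coprime_iff_not_dvd Nat.prime_two).2 S.not_dvd_index)) e
      rw [← orderOf_conj g c]
      exact klein_order hV h8 fun e' => e.ne_one (by simpa using e')
    · exact ⟨2, Nat.prime_two, by rw [hV.card_four]; norm_num, e.symm ▸ dvd_rfl⟩
  have h8 := hb.card_inv
  rw [h7, hV.card_four] at h6
  rw [Nat.card_zpowers, hx] at h8
  have h9 : 0 < Nat.card G := Nat.card_pos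
  have h10 : Nat.card (normalizer ((Cen x : Subgroup G) : Set G)) = 12 :=
    Nat.eq_of_mul_eq_mul_left (show 0 < Nat.card {u : G // orderOf u = 2} by omega) (by omega)
  have h11 := (normalizer ((Cen x : Subgroup G) : Set G)).index_mul_card
  rw [h10] at h11
  obtain ⟨q, h12, h13, -, h14⟩ := hb.main
  rw [Nat.card_zpowers, hx] at h12
  rcases h12 with h12 | h12
  · obtain rfl : q = 5 := h12
    have := (h14 (by norm_num)).1
    have h15 : Nat.card G = 60 := by omega
    have := perfect_of_simple (G := G) (by rw [h15]; norm_num)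
    exact iso_alternating_of_index (H := normalizer ((Cen x : Subgroup G) : Set G)) (by omega)
      (by norm_num) (by rw [h15]; rfl)
  · obtain rfl : q = 3 := by omega
    have h15 : (normalizer ((Cen x : Subgroup G) : Set G)).index = 1 := by omega
    exact absurd hV.card_four (hne _ (normalizer_eq_top_iff.1 (index_eq_one.1 h15))
      ⟨⟨⟨fun a b => Subtype.ext (hc a a.2 b b.2)⟩⟩, (isKleinFour_iff.1 hV).2⟩).2

end H1
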